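import Mathlib
import Cfsg.Agent.H775.Sd.FrameElem

/-!
# Frames of commuting rank one groups: `Elem`, second version (S4579, helper775)

`frame_elem_odd` : as `frame_elem`, the squares of the elements of the torus lie in `E * T₁`, `T₁` a subgroup of the torus of
odd order, normalised by the representatives of `P`.
-/

set_option autoImplicit false
set_option linter.unusedSectionVars false

namespace Cfsg.Agent.H775.Sd.FrameOdd

open Cfsg.Agent.H643.Sd Cfsg.Agent.H775.Sd.FrameElem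

section gen

/-- A finite group generated by elements of odd order has an abelianization of odd order. -/
theorem odd_abelianization' {K : Type*} [Group K] [Finite K] {S : Set K} (hS : Subgroup.closure S = ⊤)
    (h : ∀ x ∈ S, Odd (orderOf x)) : Odd (Nat.card (Abelianization K)) := by
  have h1 : ∀ y : Abelianization K, Odd (orderOf y) := by
    intro y
    obtain ⟨x, rfl⟩ := QuotientGroup.mk_surjective y
    have hx : x ∈ Subgroup.closure S := by rw [hS]; exact Subgroup.mem_top x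
    show Odd (orderOf (Abelianization.of x))
    induction hx using Subgroup.closure_induction with
    | mem x hx => exact (h x hx).of_dvd_nat (orderOf_map_dvd Abelianization.of x)
    | one => rw [map_one, orderOf_one]; exact odd_one
    | mul x y _ _ hx hy =>
      rw [map_mul]
      exact (hx.mul hy).of_dvd_nat ((Commute.all _ _).orderOf_mul_dvd_mul_orderOf)
    | inv x _ hx => rwa [map_inv, orderOf_inv]
  by_contra hcon
  rw [Nat.not_odd_iff_even, even_iff_two_dvd] at hcon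
  have : Fact (Nat.Prime 2) := ⟨Nat.prime_two⟩
  obtain ⟨y, hy⟩ := exists_prime_orderOf_dvd_card' 2 hcon
  have h2 := h1 y
  rw [hy] at h2
  exact absurd h2 (by decide)

end gen

section frame

open CoxeterSystem Cfsg.Agent.ChevalleyStructure.CoxeterGeom Cfsg.Agent.Tits.Roots Cfsg.Agent.Tits.Core
  Cfsg.Agent.Nodes.Reps Cfsg.Agent.Nodes.BNOf Cfsg.Agent.Nodes.Bruhat Cfsg.Agent.Nodes.FreeTorus
  Cfsg.Agent.ClosedTwo.Torus Cfsg.Agent.ClosedTwo.Elem Cfsg.Agent.ClosedExc Cfsg.Agent.ClosedExc.Rk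
  Cfsg.Agent.ClosedExc.Prod Cfsg.Agent.ClosedExc.Frame

variable {I W Y : Type*} [Fintype I] [DecidableEq I] [Group W] [Group Y] {M : CoxeterMatrix I}
  {cs : CoxeterSystem M W} {C : I → I → ℤ} {h : IsCartan M C} {p : ℕ} {T : Subgroup Y} {n : I → Y}
  {X : (I → ℤ) → Subgroup Y} (R : RGD cs h p T n X) [Finite W] [Finite Y]
  {ι : Type*} [Fintype ι] {β : ι → (I → ℤ)} {P : Subgroup W} (F : FrameData cs h X β P)

include R F

/-- `E T₁` has an abelianization of odd order. -/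
theorem odd_E1 [Fact p.Prime] (hp2 : Odd p) {T₁ : Subgroup Y} (hodd : ∀ t ∈ T₁, Odd (orderOf t)) :
    Odd (Nat.card (Abelianization ↥((⨆ a, LL X (β a)) ⊔ T₁))) := by
  classical
  set E := ⨆ a, LL X (β a) with hE
  refine odd_abelianization' (S := {x : ↥(E ⊔ T₁) | (∃ z, IsRoot cs h z ∧ (x : Y) ∈ X z) ∨ (x : Y) ∈ T₁}) ?_ ?_
  · have h1 : ∀ a, X (β a) ≤ E ⊔ T₁ := fun a =>
      ((X_le_LL (β a)).trans (le_iSup (fun a => LL X (β a)) a)).trans le_sup_left
    have h2 : ∀ a, X (-β a) ≤ E ⊔ T₁ := fun a =>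
      ((X_neg_le_LL (β a)).trans (le_iSup (fun a => LL X (β a)) a)).trans le_sup_left
    have key : E ⊔ T₁ ≤ (Subgroup.closure {x : ↥(E ⊔ T₁) | (∃ z, IsRoot cs h z ∧ (x : Y) ∈ X z) ∨ (x : Y) ∈ T₁}).map
        (E ⊔ T₁).subtype := by
      refine sup_le ?_ ?_
      · conv_lhs => rw [hE]
        refine iSup_le fun a => sup_le ?_ ?_
        · intro u hu
          exact ⟨⟨u, h1 a hu⟩, Subgroup.subset_closure (Or.inl ⟨β a, F.root a, hu⟩), rfl⟩
        · intro u hu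
          exact ⟨⟨u, h2 a hu⟩, Subgroup.subset_closure (Or.inl ⟨-β a, (F.root a).neg, hu⟩), rfl⟩
      · intro u hu
        exact ⟨⟨u, (le_sup_right : T₁ ≤ E ⊔ T₁) hu⟩, Subgroup.subset_closure (Or.inr hu), rfl⟩
    rw [eq_top_iff]
    rintro ⟨x, hx⟩ -
    obtain ⟨y, hy, e⟩ := key hx
    have : y = ⟨x, hx⟩ := Subtype.ext e
    rw [← this]
    exact hy
  · rintro x (⟨z, hz, hxz⟩ | hx)
    · obtain ⟨k, hk⟩ := R.pgrp' hz ⟨x, hxz⟩
      have hk' : x ^ p ^ k = 1 := Subtype.ext (congrArg (fun u : X z => (u : Y)) hk)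
      exact (hp2.pow (n := k)).of_dvd_nat (orderOf_dvd_of_pow_eq_one hk')
    · rw [← Subgroup.orderOf_coe]
      exact hodd _ hx

/-- **The frame lemma, second version.** -/
theorem frame_elem_odd [Fact p.Prime] (hp2 : Odd p) (hG : RGD.Sup X {x | IsRoot cs h x} = ⊤)
    (hSL : ∀ i, IsSL (LL X (sr i))) (hP : IsPGroup 2 ↥P) {Γ : Set W} (hPΓ : P = Subgroup.closure Γ)
    {T₁ : Subgroup Y} (hT₁ : T₁ ≤ T) (hT₁o : ∀ t ∈ T₁, Odd (orderOf t))
    (hT₁n : NP R P ≤ Subgroup.normalizer (T₁ : Set Y)) (hT₁c : Odd (Nat.card T₁))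
    (hT : ∀ t ∈ T, t * t ∈ (⨆ a, LL X (β a)) ⊔ T₁)
    (hΓ : ∀ w ∈ Γ, ∃ g, Rp cs R.nsys w g ∧ g * g ∈ ⨆ a, LL X (β a))
    (hord : ∀ m : ℕ, 2 ^ m ∣ Nat.card Y → 2 ^ m ∣ Nat.card T * Nat.card P * ∏ a, (Nat.card (X (β a)) + 1)) :
    Elem Y := by
  classical
  set E₀ := ⨆ a, LL X (β a) with hE₀
  have hSL' : ∀ x, IsRoot cs h x → IsSL (LL X x) := fun x hx => isSL_of_root R hSL hx
  have hn₀ : NP R P ≤ Subgroup.normalizer (E₀ : Set Y) := NP_le_normalizer R F
  have hEE₀ : Elem ↥E₀ := elem_iSup (fun a => elem_of_isSL (hSL' _ (F.root a))) F.orth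
  have hidx := odd_index R F hG hSL hord
  rw [← hE₀] at hidx
  have hodd := odd_E1 R F hp2 hT₁o
  rw [← hE₀] at hodd
  have hTN : T₁ ≤ NP R P := hT₁.trans (T_le_NP R)
  have hsup : E₀ ⊔ NP R P = (E₀ ⊔ T₁) ⊔ NP R P := by rw [sup_assoc, sup_eq_right.2 hTN]
  have hEE : Elem ↥(E₀ ⊔ T₁) := by
    have hle : E₀ ≤ E₀ ⊔ T₁ := le_sup_left
    refine elem_of_odd_index (E₀.subgroupOf (E₀ ⊔ T₁)) ?_
      (elem_of_surjective (Subgroup.subgroupOfEquivOfLe hle).symm.toMonoidHom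
        (Subgroup.subgroupOfEquivOfLe hle).symm.surjective hEE₀)
    have h1 := card_sup_mul' (hTN.trans hn₀)
    have h2 := Subgroup.card_mul_index (E₀.subgroupOf (E₀ ⊔ T₁))
    rw [Nat.card_congr (Subgroup.subgroupOfEquivOfLe hle).toEquiv] at h2
    rw [← h2] at h1
    have h3 : (E₀.subgroupOf (E₀ ⊔ T₁)).index * Nat.card ↥(E₀ ⊓ T₁) = Nat.card T₁ := by
      refine Nat.eq_of_mul_eq_mul_left (Nat.card_pos (α := E₀)) ?_
      rw [← mul_assoc, h1]
    exact (Nat.odd_mul.1 (h3 ▸ hT₁c)).1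
  rw [hsup] at hidx
  set E := E₀ ⊔ T₁ with hE
  have hn : NP R P ≤ Subgroup.normalizer (E : Set Y) := by
    intro g hg
    rw [mem_normalizer_iff_cj, hE, cj_sup, mem_normalizer_iff_cj.1 (hn₀ hg), mem_normalizer_iff_cj.1 (hT₁n hg)]
  have hE₀E : E₀ ≤ E := le_sup_left
  refine elem_of_odd_index (E ⊔ NP R P) hidx ?_
  have hEM : E ≤ E ⊔ NP R P := le_sup_left
  have hNM : NP R P ≤ E ⊔ NP R P := le_sup_right
  have hnorm : (E.subgroupOf (E ⊔ NP R P)).Normal :=
    (Subgroup.normal_subgroupOf_iff_le_normalizer hEM).2 (sup_le Subgroup.le_normalizer hn)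
  have e : E.subgroupOf (E ⊔ NP R P) ≃* E := Subgroup.subgroupOfEquivOfLe hEM
  -- the decomposition of the elements
  have hdec : ∀ x ∈ E ⊔ NP R P, ∃ y ∈ E, ∃ g ∈ NP R P, x = y * g := by
    intro x hx
    have hx' : x ∈ ((E ⊔ NP R P : Subgroup Y) : Set Y) := hx
    rw [Subgroup.coe_mul_of_right_le_normalizer_left _ _ hn, Set.mem_mul] at hx'
    obtain ⟨y, hy, z, hz, rfl⟩ := hx'
    exact ⟨y, hy, z, hz, rfl⟩
  refine elem_of_normal (E.subgroupOf (E ⊔ NP R P)) (elem_of_surjective e.symm.toMonoidHom e.symm.surjective hEE) ?_ ?_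
  · -- the quotient
    have hq : ∀ (x : ↥(E ⊔ NP R P)), (x : Y) ∈ E → (QuotientGroup.mk' (E.subgroupOf (E ⊔ NP R P))) x = 1 := by
      intro x hx
      exact (QuotientGroup.eq_one_iff x).2 (Subgroup.mem_subgroupOf.2 hx)
    refine elem_of_isPGroup ?_ ?_
    · intro y
      obtain ⟨⟨x, hx⟩, rfl⟩ := QuotientGroup.mk'_surjective _ y
      obtain ⟨a, ha, g, hg, rfl⟩ := hdec x hx
      obtain ⟨w, hw, hgw⟩ := hg
      obtain ⟨k, hk⟩ := hP ⟨w, hw⟩
      have hk' : w ^ 2 ^ k = 1 := congrArg Subtype.val hk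
      have hpow : ∀ m : ℕ, Rp cs R.nsys (w ^ m) (g ^ m) := by
        intro m
        induction m with
        | zero => rw [pow_zero, pow_zero]; exact rp_one
        | succ m ih => rw [pow_succ, pow_succ]; exact ih.mul hgw
      have h1 : g ^ 2 ^ k ∈ T := by
        have := hpow (2 ^ k)
        rw [hk'] at this
        exact this.mem_of_one
      have h2 : g ^ 2 ^ (k + 1) ∈ E := by
        rw [pow_succ, pow_mul, pow_two]
        exact hT _ h1
      refine ⟨k + 1, ?_⟩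
      have h3 : (⟨a * g, hx⟩ : ↥(E ⊔ NP R P)) = ⟨a, hEM ha⟩ * ⟨g, hNM ⟨w, hw, hgw⟩⟩ := rfl
      rw [h3, map_mul, hq ⟨a, hEM ha⟩ ha, one_mul, ← map_pow]
      exact hq _ h2
    · intro f
      -- the elements on which `f` has square one
      let S : Subgroup ↥(E ⊔ NP R P) :=
        ((powMonoidHom 2 : ℂˣ →* ℂˣ).comp (f.comp (QuotientGroup.mk' (E.subgroupOf (E ⊔ NP R P))))).ker
      have hS : ∀ x : ↥(E ⊔ NP R P), x ∈ S ↔ f (QuotientGroup.mk' (E.subgroupOf (E ⊔ NP R P)) x) ^ 2 = 1 :=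
        fun x => Iff.rfl
      have hSE : ∀ x : ↥(E ⊔ NP R P), (x : Y) * x ∈ E → x ∈ S := by
        intro x hx
        rw [hS, ← map_pow, ← map_pow, hq (x ^ 2) (by rw [pow_two]; exact hx), map_one]
      have hNS : ∀ w ∈ Subgroup.closure Γ, ∀ g (hg : g ∈ NP R P), Rp cs R.nsys w g → (⟨g, hNM hg⟩ : ↥(E ⊔ NP R P)) ∈ S := by
        intro w hw
        induction hw using Subgroup.closure_induction with
        | mem w hw =>
          intro g hg hgr
          obtain ⟨g0, hg0, hsq⟩ := hΓ w hw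
          have hg0N : g0 ∈ NP R P := ⟨w, by rw [hPΓ]; exact Subgroup.subset_closure hw, hg0⟩
          have ht : g0⁻¹ * g ∈ T := hg0.unique hgr
          have h3 : (⟨g, hNM hg⟩ : ↥(E ⊔ NP R P)) = ⟨g0, hNM hg0N⟩ * ⟨g0⁻¹ * g, hNM (T_le_NP R ht)⟩ :=
            Subtype.ext (by show g = g0 * (g0⁻¹ * g); group)
          rw [h3]
          exact S.mul_mem (hSE _ (hE₀E hsq)) (hSE _ (hT _ ht))
        | one =>
          intro g hg hgr
          exact hSE _ (hT _ hgr.mem_of_one)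
        | mul w1 w2 hw1 hw2 h1 h2 =>
          intro g hg hgr
          obtain ⟨g2, hr2⟩ := exists_rp cs R.nsys w2
          have hg2N : g2 ∈ NP R P := ⟨w2, by rw [hPΓ]; exact hw2, hr2⟩
          have h3 : Rp cs R.nsys w1 (g * g2⁻¹) := by
            have := hgr.mul hr2.inv
            rwa [mul_inv_cancel_right] at this
          have hg1N : g * g2⁻¹ ∈ NP R P := mul_mem hg (inv_mem hg2N)
          have h4 : (⟨g, hNM hg⟩ : ↥(E ⊔ NP R P)) = ⟨g * g2⁻¹, hNM hg1N⟩ * ⟨g2, hNM hg2N⟩ :=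
            Subtype.ext (by show g = g * g2⁻¹ * g2; group)
          rw [h4]
          exact S.mul_mem (h1 _ hg1N h3) (h2 _ hg2N hr2)
        | inv w hw h1 =>
          intro g hg hgr
          have hr : Rp cs R.nsys w g⁻¹ := by
            have := hgr.inv
            rwa [inv_inv] at this
          have h2 := S.inv_mem (h1 g⁻¹ (inv_mem hg) hr)
          have h3 : (⟨g⁻¹, hNM (inv_mem hg)⟩ : ↥(E ⊔ NP R P))⁻¹ = ⟨g, hNM hg⟩ := Subtype.ext (inv_inv g)
          rwa [h3] at h2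
      intro y
      obtain ⟨⟨x, hx⟩, rfl⟩ := QuotientGroup.mk'_surjective _ y
      rw [← hS]
      obtain ⟨a, ha, g, hg, rfl⟩ := hdec x hx
      obtain ⟨w, hw, hgw⟩ := id hg
      have h3 : (⟨a * g, hx⟩ : ↥(E ⊔ NP R P)) = ⟨a, hEM ha⟩ * ⟨g, hNM hg⟩ := rfl
      rw [h3]
      exact S.mul_mem (hSE _ (mul_mem ha ha)) (hNS w (by rw [← hPΓ]; exact hw) g hg hgw)
  · rw [Nat.card_congr (MulEquiv.abelianizationCongr e).toEquiv]
    exact hodd

end frame

end Cfsg.Agent.H775.Sd.FrameOdd
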