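import Mathlib
import Cfsg.Agent.H775.Sd.ChevElem
import Cfsg.Agent.H775.Sd.FrameOdd
import Cfsg.Agent.H190.Chev

/-!
# `Elem` for `E₆(q)`, `q = 3 mod 4` (S4579, helper775)

`elem_chev_three` : the Chevalley groups with a frame certificate, `q = 3 mod 4` (the squares of the elements of the torus have
odd order); `elem_chevE6`.
-/

set_option autoImplicit false
set_option linter.unusedSectionVars false
set_option maxRecDepth 100000

namespace Cfsg.Agent.H775.Sd.ESix

open CoxeterSystem Cfsg.Agent.ChevalleyStructure.CoxeterGeom Cfsg.Agent.Tits.Roots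
  Cfsg.Agent.Nodes.Reps Cfsg.Agent.Nodes.BNOf Cfsg.Agent.Nodes.FreeTorus Cfsg.Agent.Nodes.Bruhat
open Cfsg.Lie Cfsg.Agent.ChevalleyStructure Cfsg.Agent.ChevalleyStructure.Elts
  Cfsg.Agent.ChevalleyStructure.NPerm Cfsg.Agent.Nodes.RGDChev Cfsg.Agent.ChevalleyStructure.CoxeterGeomTypes
open Cfsg.Agent.ClosedExc Cfsg.Agent.ClosedExc.Frame Cfsg.Agent.ClosedExc.WFr Cfsg.Agent.ClosedExc.Chev
open Cfsg.Agent.H557.LrSgn Cfsg.Agent.H775.Sd.Sgn Cfsg.Agent.H643.Sd Cfsg.Agent.H775.Sd.ChevElem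

section torus

variable {D : ChevalleyDatum} (hD : InList D) {K : Type} [Field K]

include hD

theorem ent_pow {t : GL D.Idx K} (ht : t ∈ D.diagonalSubgroup K) (r : Fin D.nroots) (m : ℕ) :
    H190.ent (t ^ m) r = H190.ent t r ^ m := by
  induction m with
  | zero =>
    rw [pow_zero, pow_zero]
    show ((1 : GL D.Idx K) : Matrix D.Idx D.Idx K) (Sum.inr r) (Sum.inr r) = 1
    rw [Units.val_one, Matrix.one_apply_eq]
  | succ m ih => rw [pow_succ, pow_succ, H190.ent_mul hD (pow_mem ht m) ht, ih]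

/-- the exponent of the torus -/
theorem torus_pow [Fintype K] {t : GL D.Idx K} (ht : t ∈ D.diagonalSubgroup K) : t ^ (Fintype.card K - 1) = 1 := by
  refine H190.torus_ext hD (pow_mem ht _) (one_mem _) fun r => ?_
  rw [ent_pow hD ht, FiniteField.pow_card_sub_one_eq_one _ (H190.ent_ne_zero hD ht r)]
  have := ent_pow hD (K := K) (one_mem (D.diagonalSubgroup K)) r 0
  rw [pow_zero, pow_zero] at this
  exact this.symm

end torus

/-- The checks: the sum of the coroots of each generator is the sum of the coroots of a part of the frame modulo two. -/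
structure Chk' (l k : ℕ) (c : Cert) (SS : List (List ℕ)) : Prop where
  lt : ∀ S ∈ SS, ∀ a ∈ S, a < k
  par : ∀ g ∈ c.G, ∃ S ∈ SS, ∀ j < l, ((g.1.map (parZ c.AL l j)).sum +
    ((S.map fun a => c.FR.getD a ([], 0)).map (parZ c.AL l j)).sum) % 2 = 0

section main

variable {D : ChevalleyDatum} {l : ℕ} {M : CoxeterMatrix (Fin l)} (hp : IsType D l M) {K : Type} [Field K] [Fintype K]

/-- the elements of odd order of the torus -/
def T1 (hp : IsType D l M) (K : Type) [Field K] : Subgroup ↥(D.group K) where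
  carrier := {t | t ∈ TG D K ∧ Odd (orderOf t)}
  mul_mem' := by
    rintro a b ⟨ha, ha'⟩ ⟨hb, hb'⟩
    have hc : Commute a b := Chev.torus_comm hp K a ha b hb
    exact ⟨mul_mem ha hb, (ha'.mul hb').of_dvd_nat hc.orderOf_mul_dvd_mul_orderOf⟩
  one_mem' := ⟨one_mem _, by rw [orderOf_one]; exact odd_one⟩
  inv_mem' := by
    rintro a ⟨ha, ha'⟩
    exact ⟨inv_mem ha, by rwa [orderOf_inv]⟩

include hp

theorem odd_T1 [Finite ↥(D.group K)] : Odd (Nat.card (T1 hp K)) := by
  by_contra hcon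
  rw [Nat.not_odd_iff_even, even_iff_two_dvd] at hcon
  have : Fact (Nat.Prime 2) := ⟨Nat.prime_two⟩
  obtain ⟨y, hy⟩ := exists_prime_orderOf_dvd_card' 2 hcon
  have h2 : Odd (orderOf (y : ↥(D.group K))) := y.2.2
  rw [Subgroup.orderOf_coe, hy] at h2
  exact absurd h2 (by decide)

/-- **The Chevalley groups with a frame, `q = 3 mod 4`.** -/
theorem elem_chev_three (hK : Fintype.card K % 4 = 3) (hcen : ∀ z : ↥(D.group K), (∀ y, z * y = y * z) → z = 1)
    {W : Type*} [Group W] (cs : CoxeterSystem M W) {k s : ℕ} {c : Cert} {SS : List (List ℕ)}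
    (hA : IsTab (cartanOf D l) c.AL) (hc : Ok l k (2 ^ s) c) (hk : Chk' l k c SS)
    (hO1 : ∀ a < k, ∀ b < k, a ≠ b → Orth D l (toV l (c.T.getD a [])) (toV l (c.T.getD b [])))
    (hO2 : ∀ g ∈ c.G, g.1.Pairwise fun p q => Orth D l (toV l (rootOf c.AL l p)) (toV l (rootOf c.AL l q)))
    (hord : ∀ m : ℕ, 2 ^ m ∣ Nat.card ↥(D.group K) →
      2 ^ m ∣ Nat.card ↥(D.diagonalSubgroup K) * 2 ^ s * (Fintype.card K + 1) ^ k) :
    Elem ↥(D.group K) := by
  classical
  have hKo : Odd (Fintype.card K) := Nat.odd_iff.2 (by omega)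
  obtain ⟨p, hpc⟩ := CharP.exists K
  have hpp : p.Prime := (CharP.char_is_prime_or_zero K p).resolve_right (CharP.char_ne_zero_of_finite K p)
  have : Fact p.Prime := ⟨hpp⟩
  have hfin : Finite W := finite_W hp cs
  have hp2 : Odd p := by
    obtain ⟨n, -, hn⟩ := FiniteField.card K p
    rw [hn] at hKo
    exact (Nat.odd_pow_iff n.pos.ne').1 hKo
  have R := rgd (K := K) hp cs p
  obtain ⟨f1, f2, f3, f4⟩ := wframe' cs hp.isCartan hA hc
  have hT : Nat.card (TG D K) = Nat.card ↥(D.diagonalSubgroup K) :=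
    Nat.card_congr (Subgroup.subgroupOfEquivOfLe (Cfsg.Agent.ChevalleyStructure.Elts.diagonal_le_group hp.inList K)).toEquiv
  have F : FrameData cs hp.isCartan (Chev.XX D l K) (fun a : Fin k => toV l (c.T.getD a [])) (Subgroup.closure (Gm cs c)) :=
    ⟨fun a => f1 a a.2, fun a b hab => Chev.lc_of_orth hp K (hO1 a a.2 b b.2 fun e => hab (Fin.ext e)), f2, f3⟩
  have hG := G1_eq_top (K := K) hp cs
  have hs := simple_lift (K := K) hp p cs
  set E := ⨆ a : Fin k, LL (Chev.XX D l K) (toV l (c.T.getD a [])) with hE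
  have hfrE : ∀ a < k, LL (Chev.XX D l K) (toV l (rootOf c.AL l (c.FR.getD a ([], 0)))) ≤ E := by
    intro a ha
    rw [(hc.fr a ha).2]
    exact le_iSup (fun a : Fin k => LL (Chev.XX D l K) (toV l (c.T.getD a []))) ⟨a, ha⟩
  refine FrameOdd.frame_elem_odd R F hp2 hG (fun i => Chev.isSL hp K hKo i) (IsPGroup.of_card f4) rfl
    (T₁ := T1 hp K) (fun t ht => ht.1) (fun t ht => ht.2) ?_ (odd_T1 hp) ?_ ?_ ?_
  · -- `N` normalises `T₁`
    rintro g ⟨w, -, hg⟩
    have key : ∀ x, x ∈ T1 hp K ↔ g * x * g⁻¹ ∈ T1 hp K := by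
      intro x
      have h1 : orderOf (g * x * g⁻¹) = orderOf x := by
        have := (MulAut.conj g).orderOf_eq x
        rwa [MulAut.conj_apply] at this
      constructor
      · rintro ⟨hx, hx'⟩
        exact ⟨(Subgroup.mem_normalizer_iff.1 hg.mem_normalizer x).1 hx, by rw [h1]; exact hx'⟩
      · rintro ⟨hx, hx'⟩
        exact ⟨(Subgroup.mem_normalizer_iff.1 hg.mem_normalizer x).2 hx, by rw [h1] at hx'; exact hx'⟩
    exact Subgroup.mem_normalizer_iff.2 key
  · intro t ht
    refine Subgroup.mem_sup_right ⟨mul_mem ht ht, ?_⟩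
    have h1 : t ^ (Fintype.card K - 1) = 1 := Subtype.ext (by
      rw [Subgroup.coe_pow, Subgroup.coe_one]
      exact torus_pow hp.inList ht)
    have h2 : (t * t) ^ ((Fintype.card K - 1) / 2) = 1 := by
      rw [← pow_two, ← pow_mul]
      have : 2 * ((Fintype.card K - 1) / 2) = Fintype.card K - 1 := by omega
      rw [this, h1]
    have h3 : Odd ((Fintype.card K - 1) / 2) := Nat.odd_iff.2 (by omega)
    exact h3.of_dvd_nat (orderOf_dvd_of_pow_eq_one h2)
  · -- the generators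
    rintro w ⟨g, hg, rfl⟩
    obtain ⟨m, hm, hm2, -⟩ := exists_lift R hA hs g.1 (hc.gl g hg)
      ((hO2 g hg).imp fun ho => Chev.lc_of_orth hp K ho)
    obtain ⟨S, hS, hpar⟩ := hk.par g hg
    have hSl : ∀ p ∈ S.map fun a => c.FR.getD a ([], 0), p.2 < l := by
      intro p hp'
      obtain ⟨a, ha, rfl⟩ := List.mem_map.1 hp'
      exact (hc.fr a (hk.lt S hS a ha)).1
    obtain ⟨z, hz, hz2⟩ := exists_sq R hA hs (E := E) (S.map fun a => c.FR.getD a ([], 0)) hSl (fun p hp' => by
      obtain ⟨a, ha, rfl⟩ := List.mem_map.1 hp'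
      exact hfrE a (hk.lt S hS a ha))
    refine ⟨m, hm, ?_⟩
    rw [sum_par_eq hA (hc.gl g hg) hSl hpar] at hm2
    rw [sgn_ext hG hcen hm2 hz2]
    exact hz
  · intro m hm
    have h8 := hord m hm
    have h9 : ∀ a : Fin k, Nat.card (Chev.XX D l K (toV l (c.T.getD a []))) = Fintype.card K :=
      fun a => Chev.card_XX hp K cs (f1 a a.2)
    rw [hT, f4]
    simp only [h9, Finset.prod_const, Finset.card_univ, Fintype.card_fin]
    exact h8

end main

/-! ### `E₆(q)`, `q = 3 mod 4` -/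

section rows

open Cfsg.Agent.ClosedExc.Families

theorem chkE6 : Chk' 6 4 cE6 [[0, 3], [0, 1]] where
  lt := by decide +kernel
  par := by decide +kernel

/-- **`E₆(q)`, `q = 3 mod 4`** -/
theorem elem_chevE6 (K : Type) [Field K] [Fintype K] (hK : Fintype.card K % 4 = 3) : Elem ↥(chevE6.group K) := by
  have hKo : Odd (Fintype.card K) := Nat.odd_iff.2 (by omega)
  exact elem_chev_three isType_E6 hK (cen_of_simple (S1054.result chevE6 (by simp)))
    CoxeterMatrix.E₆.toCoxeterSystem (s := 3)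
    tabE6 okE6 chkE6 (fun a ha b hb hab => orth_of (orth1E6 a ha b hb hab))
    (fun g hg => (orth2E6 g hg).imp fun h => orth_of h)
    (Orders.ord_E6 hKo (three_le hKo) (Nat.gcd_pos_of_pos_left _ (by norm_num)).ne' (S1063.result (F := K) rfl)
      (S1035.result (F := K) rfl (chevE6, Nat.gcd 3 (Fintype.card K - 1)) (by simp)))

end rows

end Cfsg.Agent.H775.Sd.ESix
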